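import Cfsg.Agent.H723.CY.Loc
import Cfsg.Agent.H362.CY.Compl
import Cfsg.Agent.H902.CY.Odd

/-!
# S4829, L8: the odd part of `A / Inn S` is free (helper723)

* `witA_of_two` : ANY `p`-cyclotomic extension `Θ` to `A` of `θ ∈ B₀(S)`, `θ ≠ 1`, of degree prime to `p` is a witness,
  provided `Θ b ≡ Θ 1` for the `2`-elements `b` which centralize a Sylow `p`-subgroup of `S`.
* `rowA_of_theta` : the row, from an `Aut S`-invariant `p`-cyclotomic `θ ∈ B₀(S)` of degree prime to `p`, if the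
  `2`-elements of `Aut S` which centralize a Sylow `p`-subgroup of `S` are inner and (`θ 1` is odd or all `2`-elements
  of `Aut S` are inner).
-/

set_option autoImplicit false
set_option linter.unusedSectionVars false

open Cfsg Cfsg.Agent.Characters.Core Cfsg.Agent.H770.CY Cfsg.Agent.H902.CY
open Cfsg.Agent.H700.PRatExt Cfsg.Agent.H700.PrinExt Cfsg.Agent.H700.PrinCrit
open Cfsg.Agent.Blocks.Basic Cfsg.Agent.Blocks.Local
open Subgroup

namespace Cfsg.Agent.H723.CY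

universe u

variable {S : Type u} [Group S] [Fintype S] {p : ℕ} [hp : Fact p.Prime] {M : Ideal AlgInt}

/-- the local condition on `X` -/
theorem loc_emb (hM : IsPModular p M) (hz : center S = ⊥) {X : Subgroup (MulAut S)} (hX : ∀ s : S, MulAut.conj s ∈ X)
    (hpX : ¬ p ∣ (emb hX).range.index) {θ : IrrCharacter S} (hθ : θ ∈ principalBlock M S)
    (hdeg : ¬ p ∣ charDegree (θ : S → ℂ)) {Θ : X → ℂ} (hΘ : IsCharacter X Θ) (hΘc : Cyc p Θ)
    (hres : ∀ s, Θ (emb hX s) = (θ : S → ℂ) s)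
    (h2 : ∀ b : X, (∃ j, orderOf b = 2 ^ j) → (∃ Q : Sylow p S, ∀ x ∈ Q, (b : MulAut S) x = x) →
      MemLocalIdeal M (Θ b - Θ 1)) (a : X) (ha : ∃ Q : Sylow p S, ∀ x ∈ Q, (a : MulAut S) x = x) :
    MemLocalIdeal M (Θ a - Θ 1) := by
  have hfinM : Finite (MulAut S) := Finite.of_injective (fun a : MulAut S => (a : S → S)) DFunLike.coe_injective
  have hN : ((emb hX).range).Normal := range_emb_normal hX
  let e : S ≃* (emb hX).range := MonoidHom.ofInjective (emb_inj hX hz)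
  have he : ∀ s, ((e s : (emb hX).range) : X) = emb hX s := fun s => rfl
  have hcomm : ∀ (b : X) (s : S), b * emb hX s * b⁻¹ = emb hX ((b : MulAut S) s) := by
    intro b s
    apply Subtype.ext
    ext y
    show (b : MulAut S) (s * ((b : MulAut S)⁻¹ : MulAut S) y * s⁻¹) = (b : MulAut S) s * y * ((b : MulAut S) s)⁻¹
    rw [map_mul, map_mul, map_inv, MulAut.apply_inv_self]
  obtain ⟨Q, hQ⟩ := ha
  let Q' : Sylow p (emb hX).range := Q.comapOfInjective e.symm.toMonoidHom e.symm.injective (by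
    rw [MonoidHom.range_eq_top.2 e.symm.surjective]; exact le_top)
  have hQ' : ∀ y, y ∈ Q' ↔ e.symm y ∈ Q := fun y => Iff.rfl
  have key : ∀ b : X, (∀ y ∈ (Q' : Subgroup (emb hX).range), b * (y : X) = y * b) ↔ ∀ x ∈ Q, (b : MulAut S) x = x := by
    intro b
    constructor
    · intro h x hx
      have h1 := h (e x) ((hQ' _).2 (by rw [e.symm_apply_apply]; exact hx))
      rw [he] at h1
      have h3 : b * emb hX x * b⁻¹ = emb hX x := by rw [h1, mul_inv_cancel_right]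
      rw [hcomm] at h3
      exact emb_inj hX hz h3
    · intro h y hy
      have h1 := h (e.symm y) ((hQ' y).1 hy)
      have h3 := hcomm b (e.symm y)
      rw [h1] at h3
      have h4 : ((y : (emb hX).range) : X) = emb hX (e.symm y) := by rw [← he, e.apply_symm_apply]
      rw [h4]
      exact mul_inv_eq_iff_eq_mul.1 h3
  refine loc_of_two hM (emb hX).range hpX hΘ (mapIrr e.symm θ) (fun n => ?_) (mapIrr_mem _ hθ)
    (by rw [charDegree_mapIrr]; exact hdeg) hΘc Q' (fun b hb hbQ => h2 b hb ⟨Q, (key b).1 hbQ⟩) a ((key a).2 hQ)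
  rw [mapIrr_apply, ← hres, ← he, e.apply_symm_apply]

/-- the other conditions -/
theorem mf_of_res {A : Subgroup (MulAut S)} {hA : ∀ s : S, MulAut.conj s ∈ A} {θ : IrrCharacter S}
    (hne : (θ : S → ℂ) ≠ fun _ => 1) (hcyc : Cyc p (θ : S → ℂ)) {Θ : A → ℂ} (hres : res hA Θ = (θ : S → ℂ))
    (ψ : IrrCharacter S) : mul (res hA Θ) (ψ : S → ℂ) = 0 ∨
      (mul (res hA Θ) (ψ : S → ℂ) = 1 ∧ (ψ : S → ℂ) ≠ (fun _ => 1) ∧ Cyc p (ψ : S → ℂ)) := by
  classical
  rw [hres, Cfsg.Agent.H362.CY.mul_eq_inner, Cfsg.Agent.Characters.Core.classInner_irr θ.2 ψ.2]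
  by_cases h : (θ : S → ℂ) = (ψ : S → ℂ)
  · rw [if_pos h]
    exact Or.inr ⟨rfl, h ▸ hne, h ▸ hcyc⟩
  · rw [if_neg h]
    exact Or.inl rfl

/-- **L8 (3)**: any `p`-cyclotomic extension is a witness, if it is good at the `2`-elements. -/
theorem witA_of_two (hM : IsPModular p M) (hz : center S = ⊥) {A : Subgroup (MulAut S)} (hA : Amb p S A)
    {θ : IrrCharacter S} (hθ : θ ∈ principalBlock M S)
    (hne : (θ : S → ℂ) ≠ fun _ => 1) (hdeg : ¬ p ∣ charDegree (θ : S → ℂ)) (hcyc : Cyc p (θ : S → ℂ))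
    {Θ : A → ℂ} (hΘ : IsCharacter A Θ) (hΘc : Cyc p Θ) (hres : res hA.1 Θ = (θ : S → ℂ))
    (h2 : ∀ b : A, (∃ j, orderOf b = 2 ^ j) → (∃ Q : Sylow p S, ∀ x ∈ Q, (b : MulAut S) x = x) →
      MemLocalIdeal M (Θ b - Θ 1)) : WitA p M S A hA.1 Θ := by
  have hfinM : Finite (MulAut S) := Finite.of_injective (fun a : MulAut S => (a : S → S)) DFunLike.coe_injective
  obtain ⟨hAS, X, hXA, hSX, hXn, hXS, k₀, hk₀⟩ := hA
  have hone : Θ 1 = (charDegree (θ : S → ℂ) : ℂ) := by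
    rw [← irr_one_eq_charDegree θ.2, ← hres]
    show Θ 1 = Θ ⟨MulAut.conj 1, _⟩
    congr 1
    apply Subtype.ext
    exact (map_one MulAut.conj).symm
  refine ⟨hΘ, hΘc, ⟨_, hone, hdeg⟩, mf_of_res hne hcyc hres, fun a ha haQ => ?_⟩
  have haX : (a : MulAut S) ∈ X := mem_of_reg hp.out hXn hk₀ a.2 (by rwa [Subgroup.orderOf_coe])
  have hidx : ¬ p ∣ (emb hSX).range.index := by
    have : (emb hSX).range = (MulAut.conj : S →* MulAut S).range.subgroupOf X := by
      ext x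
      rw [mem_range_emb, mem_subgroupOf]
    rw [this]
    exact hXS
  let i : X →* A := Subgroup.inclusion hXA
  have h3 := loc_emb (Θ := Θ ∘ i) hM hz hSX hidx hθ hdeg (isCharacter_comp i hΘ) (cyc_comp hp.out i hΘc)
    (fun s => by rw [← hres]; rfl) (fun b hb hbQ => h2 (i b) (by
      obtain ⟨j, hj⟩ := hb
      exact ⟨j, by rw [orderOf_injective i (Subgroup.inclusion_injective hXA), hj]⟩) hbQ) ⟨a, haX⟩ haQ
  exact h3

/-- `X / Inn S` is solvable -/
theorem solvable_quot (hs : Group.IsSolvable (Cfsg.Out S)) {X : Subgroup (MulAut S)}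
    (hX : ∀ s : S, MulAut.conj s ∈ X) :
    letI := range_emb_normal hX
    Group.IsSolvable (X ⧸ (emb hX).range) := by
  have hN : ((emb hX).range).Normal := range_emb_normal hX
  let f : X ⧸ (emb hX).range →* Cfsg.Out S := QuotientGroup.map _ _ X.subtype (fun x hx => (mem_range_emb hX x).1 hx)
  have hf : Function.Injective f := by
    rw [← MonoidHom.ker_eq_bot_iff, Subgroup.eq_bot_iff_forall]
    intro x
    induction x using QuotientGroup.induction_on with
    | _ x =>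
      intro hx
      rw [MonoidHom.mem_ker] at hx
      have h1 : ((x : MulAut S) : Cfsg.Out S) = 1 := hx
      rw [QuotientGroup.eq_one_iff] at h1
      exact (QuotientGroup.eq_one_iff x).2 ((mem_range_emb hX x).2 h1)
  exact Group.isSolvable_of_isSolvable_injective hf

theorem index_emb {X : Subgroup (MulAut S)} (hX : ∀ s : S, MulAut.conj s ∈ X) :
    (emb hX).range.index = (MulAut.conj : S →* MulAut S).range.relIndex X := by
  have h5 : (emb hX).range = (MulAut.conj : S →* MulAut S).range.subgroupOf X := by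
    ext x
    rw [mem_range_emb, mem_subgroupOf]
  rw [h5]
  rfl

/-- **The canonical extension to `X`**, `X / Inn S` a solvable `p'`-group. -/
theorem exists_canon_emb [IsSimpleGroup S] (hna : ¬ IsMulCommutative S) (hs : Group.IsSolvable (Cfsg.Out S))
    {A X : Subgroup (MulAut S)} (hX : ∀ s : S, MulAut.conj s ∈ X) (hXA : X ≤ A)
    (hnorm : ∀ a ∈ A, ∀ x ∈ X, a * x * a⁻¹ ∈ X) (hpX : ¬ p ∣ (MulAut.conj : S →* MulAut S).range.relIndex X)
    {θ : S → ℂ} (hθ : IsIrrCharacter S θ) (hcyc : Cyc p θ) (hinv : ∀ a ∈ A, ∀ x, θ (a x) = θ x)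
    (hodd : Odd ((MulAut.conj : S →* MulAut S).range.relIndex X) ∨ Odd (charDegree θ)) :
    ∃ Ψ : X → ℂ, IsIrrCharacter X Ψ ∧ Cyc p Ψ ∧ res hX Ψ = θ ∧
      ∀ a ∈ A, ∀ x y : X, (y : MulAut S) = a * x * a⁻¹ → Ψ y = Ψ x := by
  have hz := center_bot hna
  have hfinM : Finite (MulAut S) := Finite.of_injective (fun a : MulAut S => (a : S → S)) DFunLike.coe_injective
  let e : S ≃* (emb hX).range := MonoidHom.ofInjective (emb_inj hX hz)
  have hN : ((emb hX).range).Normal := range_emb_normal hX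
  have hsN : IsSimpleGroup (emb hX).range := e.symm.isSimpleGroup
  have hnaN : ¬ IsMulCommutative (emb hX).range := by
    intro h
    apply hna
    refine ⟨⟨fun a b => e.injective ?_⟩⟩
    rw [map_mul, map_mul]
    exact h.1.1 _ _
  have hsym : ∀ s : S, e.symm ⟨emb hX s, ⟨s, rfl⟩⟩ = s := fun s => e.symm_apply_apply s
  have hconj : ∀ (a : MulAut S) (s : S), a * MulAut.conj s * a⁻¹ = MulAut.conj (a s) := by
    intro a s
    ext x
    simp [MulAut.conj_apply]
  have hinv' : ∀ (g : X) (n : (emb hX).range), θ (e.symm ⟨g * n * g⁻¹, hN.conj_mem (n : X) n.2 g⟩) = θ (e.symm n) := by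
    rintro g ⟨_, s, rfl⟩
    have h1 : (⟨g * (emb hX s) * g⁻¹, hN.conj_mem _ ⟨s, rfl⟩ g⟩ : (emb hX).range) =
        ⟨emb hX ((g : MulAut S) s), ⟨_, rfl⟩⟩ := by
      apply Subtype.ext
      apply Subtype.ext
      exact hconj g s
    show θ (e.symm ⟨g * (emb hX s) * g⁻¹, hN.conj_mem _ ⟨s, rfl⟩ g⟩) = θ (e.symm ⟨emb hX s, ⟨s, rfl⟩⟩)
    rw [h1, hsym, hsym]
    exact hinv _ (hXA g.2) s
  have hφ : IsIrrCharacter (emb hX).range (fun n => θ (e.symm n)) := isIrr_comp e.symm.toMonoidHom e.symm.surjective hθ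
  have hdeg : θ (e.symm 1) = (charDegree θ : ℂ) := by
    rw [map_one]
    exact Blocks.Basic.irr_one_eq_charDegree hθ
  have hodd' : Odd (emb hX).range.index ∨ ∃ d : ℕ, (fun n : (emb hX).range => θ (e.symm n)) 1 = d ∧ Odd d := by
    rcases hodd with h | h
    · exact Or.inl (by rw [index_emb]; exact h)
    · exact Or.inr ⟨_, hdeg, h⟩
  obtain ⟨k, χ, hk, hkp, hki, hχ, hχc⟩ := exists_canon hp.out (emb hX).range (solvable_quot hs hX)
    (by rw [index_emb]; exact hpX) hφ (cyc_comp hp.out e.symm.toMonoidHom hcyc)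
    (detChar_of_perfect (commutator_top hnaN) hφ) hinv' hodd'
  have hres : ∀ s, χ (emb hX s) = θ s := by
    intro s
    have h1 := hχ.res ⟨emb hX s, ⟨s, rfl⟩⟩
    simp only at h1
    rw [hsym] at h1
    exact h1
  refine ⟨χ, hχ.irr, hχc, funext hres, fun a ha x y hxy => ?_⟩
  have hA' : ∀ x : X, a * x * a⁻¹ ∈ X := fun x => hnorm a ha x x.2
  have hA'' : ∀ x : X, a⁻¹ * x * a ∈ X := fun x => by
    have := hnorm a⁻¹ (A.inv_mem ha) x x.2
    rwa [inv_inv] at this
  let α : X ≃* X :=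
    { toFun := fun x => ⟨a * x * a⁻¹, hA' x⟩
      invFun := fun x => ⟨a⁻¹ * x * a, hA'' x⟩
      left_inv := fun x => Subtype.ext (by show a⁻¹ * (a * x * a⁻¹) * a = x; group)
      right_inv := fun x => Subtype.ext (by show a * (a⁻¹ * x * a) * a⁻¹ = x; group)
      map_mul' := fun x y => Subtype.ext (by
        show a * ((x : MulAut S) * y) * a⁻¹ = a * x * a⁻¹ * (a * y * a⁻¹); group) }
  have hαe : ∀ s, α (emb hX s) = emb hX (a s) := fun s => Subtype.ext (hconj a s)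
  have h1 := hχ.aut hφ hki hodd' α (by
    rintro _ ⟨s, rfl⟩
    exact ⟨a s, (hαe s).symm⟩) (by
    rintro ⟨_, s, rfl⟩
    have h2 : (⟨α (emb hX s), ⟨a s, (hαe s).symm⟩⟩ : (emb hX).range) = ⟨emb hX (a s), ⟨_, rfl⟩⟩ := Subtype.ext (hαe s)
    show θ (e.symm ⟨α (emb hX s), ⟨a s, (hαe s).symm⟩⟩) = θ (e.symm ⟨emb hX s, ⟨s, rfl⟩⟩)
    rw [h2, hsym, hsym]
    exact hinv a ha s) x
  have h2 : α x = y := Subtype.ext hxy.symm
  rw [← h2]
  exact h1

/-- **the witness on `X`** -/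
theorem exists_wit [IsSimpleGroup S] (hna : ¬ IsMulCommutative S) (hs : Group.IsSolvable (Cfsg.Out S))
    {A X : Subgroup (MulAut S)} (hX : ∀ s : S, MulAut.conj s ∈ X) (hXA : X ≤ A)
    (hnorm : ∀ a ∈ A, ∀ x ∈ X, a * x * a⁻¹ ∈ X) (hpX : ¬ p ∣ (MulAut.conj : S →* MulAut S).range.relIndex X)
    (hM : IsPModular p M) {θ : IrrCharacter S} (hθ : θ ∈ principalBlock M S)
    (hne : (θ : S → ℂ) ≠ fun _ => 1) (hdeg : ¬ p ∣ charDegree (θ : S → ℂ)) (hcyc : Cyc p (θ : S → ℂ))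
    (hinv : ∀ a ∈ A, ∀ x, (θ : S → ℂ) (a x) = (θ : S → ℂ) x)
    (hodd : Odd ((MulAut.conj : S →* MulAut S).range.relIndex X) ∨ Odd (charDegree (θ : S → ℂ)))
    (h2 : ∀ b ∈ X, (∃ j, orderOf b = 2 ^ j) → (∃ Q : Sylow p S, ∀ x ∈ Q, b x = x) →
      b ∈ (MulAut.conj : S →* MulAut S).range) :
    ∃ Ψ : X → ℂ, WitA p M S X hX Ψ ∧ ∀ a ∈ A, ∀ x y : X, (y : MulAut S) = a * x * a⁻¹ → Ψ y = Ψ x := by
  have hz := center_bot hna
  have hfinM : Finite (MulAut S) := Finite.of_injective (fun a : MulAut S => (a : S → S)) DFunLike.coe_injective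
  obtain ⟨Ψ, hΨ, hΨc, hres, hΨinv⟩ := exists_canon_emb hna hs hX hXA hnorm hpX θ.2 hcyc hinv hodd
  have hone : Ψ 1 = (charDegree (θ : S → ℂ) : ℂ) := by
    rw [← irr_one_eq_charDegree θ.2, ← hres]
    show Ψ 1 = Ψ ⟨MulAut.conj 1, _⟩
    congr 1
    apply Subtype.ext
    exact (map_one MulAut.conj).symm
  refine ⟨Ψ, ⟨isIrr_isCharacter hΨ, hΨc, ⟨_, hone, hdeg⟩, mf_of_res hne hcyc hres, fun a _ haQ => ?_⟩, hΨinv⟩
  refine loc_emb hM hz hX (by rw [index_emb]; exact hpX) hθ hdeg (isIrr_isCharacter hΨ) hΨc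
    (fun s => by rw [← hres]; rfl) (fun b hb hbQ => ?_) a haQ
  obtain ⟨s, hs'⟩ := h2 b b.2 (by rw [Subgroup.orderOf_coe]; exact hb) hbQ
  have hbs : b = emb hX s := Subtype.ext hs'.symm
  obtain ⟨Q, hQ⟩ := hbQ
  rw [hone, hbs]
  have h3 : Ψ (emb hX s) = (θ : S → ℂ) s := by rw [← hres]; rfl
  rw [h3, ← irr_one_eq_charDegree θ.2]
  refine (mem_principalBlock_iff hM Q.2 Q.not_dvd_index θ hdeg).1 hθ s ?_
  rw [mem_centralizer_iff]
  intro x hx
  have h4 := hQ x hx
  rw [← hs'] at h4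
  have h5 : s * x * s⁻¹ = x := h4
  exact (mul_inv_eq_iff_eq_mul.1 h5).symm

/-- **L8**: the row from an `Aut S`-invariant `p`-cyclotomic character of degree prime to `p` in the principal block. -/
theorem rowA_of_theta [IsSimpleGroup S] (hna : ¬ IsMulCommutative S) (hs : Group.IsSolvable (Cfsg.Out S))
    (h : ∀ M : Ideal AlgInt, IsPModular p M → ∃ θ : IrrCharacter S, θ ∈ principalBlock M S ∧
      (θ : S → ℂ) ≠ (fun _ => 1) ∧ ¬ p ∣ charDegree (θ : S → ℂ) ∧ Cyc p (θ : S → ℂ) ∧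
      (∀ (a : MulAut S) (x : S), (θ : S → ℂ) (a x) = (θ : S → ℂ) x) ∧
      (Odd (MulAut.conj : S →* MulAut S).range.index ∨ (Odd (charDegree (θ : S → ℂ)) ∧
        ∀ b : MulAut S, (∃ j, orderOf b = 2 ^ j) → (∃ Q : Sylow p S, ∀ x ∈ Q, b x = x) →
          b ∈ (MulAut.conj : S →* MulAut S).range))) : RowA p S := by
  have hfinM : Finite (MulAut S) := Finite.of_injective (fun a : MulAut S => (a : S → S)) DFunLike.coe_injective
  refine Cfsg.Agent.H362.CY.rowA_of_compl hna fun A X hX hXA hnorm hpX _ M hM => ?_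
  obtain ⟨θ, h1, h2, h3, h4, h5, h6⟩ := h M hM
  refine exists_wit hna hs hX hXA hnorm hpX hM h1 h2 h3 h4 (fun a _ x => h5 a x) ?_ ?_
  · rcases h6 with h6 | h6
    · left
      have h7 : (MulAut.conj : S →* MulAut S).range.relIndex X ∣ (MulAut.conj : S →* MulAut S).range.index :=
        Subgroup.relIndex_dvd_index_of_normal _ _
      exact Odd.of_dvd_nat h6 h7
    · exact Or.inr h6.1
  · rcases h6 with h6 | h6
    · rintro b - ⟨j, hj⟩ -
      -- an element of order a power of two in an odd index normal subgroup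
      have h7 : b ^ (MulAut.conj : S →* MulAut S).range.index ∈ (MulAut.conj : S →* MulAut S).range :=
        Subgroup.pow_index_mem _ b
      have h8 : Nat.Coprime (orderOf b) (MulAut.conj : S →* MulAut S).range.index := by
        rw [hj]
        exact Nat.Coprime.pow_left j (Nat.coprime_two_left.2 h6)
      obtain ⟨m, hm⟩ := exists_pow_eq_self_of_coprime h8.symm
      rw [← hm]
      exact Subgroup.pow_mem _ h7 m
    · exact fun b _ hb hQ => h6.2 b hb hQ

end Cfsg.Agent.H723.CY
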